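import Mathlib
import Cfsg.Agent.PGrp.Basic

set_option autoImplicit false
set_option linter.unusedVariables false
set_option linter.unusedSectionVars false
set_option linter.unusedSimpArgs false
set_option linter.style.haveILetI false

namespace Cfsg.Agent.Cov
open Subgroup
open scoped commutatorElement

variable {H V : Type*} [Group H] [CommGroup V] [MulDistribMulAction H V] {p : ℕ}

def fx (V : Type*) [CommGroup V] [MulDistribMulAction H V] (D : Subgroup H) : Subgroup V where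
  carrier := {v | ∀ d ∈ D, d • v = v}
  one_mem' := fun d _ => smul_one d
  mul_mem' := fun {a b} ha hb d hd => by rw [smul_mul', ha d hd, hb d hd]
  inv_mem' := fun {a} ha d hd => by rw [smul_inv', ha d hd]

theorem mem_fx {D : Subgroup H} {v : V} : v ∈ fx V D ↔ ∀ d ∈ D, d • v = v := Iff.rfl

theorem mem_fx_zpowers {y : H} {v : V} : v ∈ fx V (zpowers y) ↔ y • v = v :=
  ⟨fun h => h y (mem_zpowers y), fun h d hd =>
    (zpowers_le (H := MulAction.stabilizer H v)).2 h hd⟩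

theorem mem_fx_sup {A B : Subgroup H} {v : V} (h1 : v ∈ fx V A) (h2 : v ∈ fx V B) :
    v ∈ fx V (A ⊔ B) := fun d hd =>
  (sup_le (c := MulAction.stabilizer H v) h1 h2) hd

theorem indep {ι : Type*} (Y : ι → Subgroup H)
    (hc : ∀ i j, ∀ y ∈ Y i, ∀ y' ∈ Y j, y * y' = y' * y)
    (h' : ∀ i j, i ≠ j → ∀ v : V, v ∈ fx V (Y i) → v ∈ fx V (Y j) → v = 1) (s : Finset ι) :
    ∀ w : ι → V, (∀ i ∈ s, w i ∈ fx V (Y i)) → ∏ i ∈ s, w i = 1 → ∀ i ∈ s, w i = 1 := by
  classical
  induction s using Finset.induction_on with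
  | empty => simp
  | insert j s hj ih =>
  intro w hw h0
  rw [Finset.prod_insert hj] at h0
  have h1 : ∀ i ∈ s, w i = 1 := by
    intro i hi
    refine h' i j (by rintro rfl; exact hj hi) _ (hw i (Finset.mem_insert_of_mem hi)) fun y hy => ?_
    have := ih (fun i => y • w i * (w i)⁻¹) (fun i hi z hz => by
      have := hw i (Finset.mem_insert_of_mem hi) z hz
      rw [smul_mul', smul_inv', this, ← mul_smul, hc i j z hz y hy, mul_smul, this]) (by
      rw [Finset.prod_mul_distrib, Finset.prod_inv_distrib, ← Finset.smul_prod',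
        eq_inv_of_mul_eq_one_right h0, smul_inv', hw j (Finset.mem_insert_self j s) y hy]
      simp) i hi
    exact mul_inv_eq_one.1 this
  rw [Finset.prod_eq_one h1, mul_one] at h0
  simpa [h0] using h1

theorem indep_inj {ι : Type*} [Fintype ι] (Y : ι → Subgroup H)
    (hc : ∀ i j, ∀ y ∈ Y i, ∀ y' ∈ Y j, y * y' = y' * y)
    (h' : ∀ i j, i ≠ j → ∀ v : V, v ∈ fx V (Y i) → v ∈ fx V (Y j) → v = 1) (w w' : ι → V)
    (hw : ∀ i, w i ∈ fx V (Y i)) (hw' : ∀ i, w' i ∈ fx V (Y i)) (e : ∏ i, w i = ∏ i, w' i) :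
    w = w' := by
  funext i
  exact mul_inv_eq_one.1 (indep Y hc h' Finset.univ (fun i => w i * (w' i)⁻¹)
    (fun i _ => mul_mem (hw i) (inv_mem (hw' i)))
    (by rw [Finset.prod_mul_distrib, Finset.prod_inv_distrib, e, mul_inv_cancel]) i (Finset.mem_univ i))

theorem indep_card [Finite V] {ι : Type*} [Finite ι] (Y : ι → Subgroup H)
    (hc : ∀ i j, ∀ y ∈ Y i, ∀ y' ∈ Y j, y * y' = y' * y)
    (h' : ∀ i j, i ≠ j → ∀ v : V, v ∈ fx V (Y i) → v ∈ fx V (Y j) → v = 1) (U : Subgroup V)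
    (g : ι → H) (hg : ∀ i, ∀ u ∈ U, g i • u ∈ fx V (Y i)) :
    Nat.card U ^ Nat.card ι ≤ Nat.card V := by
  haveI := Fintype.ofFinite ι
  rw [← Nat.card_fun]
  refine Nat.card_le_card_of_injective (fun f : ι → U => ∏ i, g i • (f i : V)) fun f f' e => ?_
  have := indep_inj Y hc h' _ _ (fun i => hg i _ (f i).2) (fun i => hg i _ (f' i).2) e
  funext i
  exact Subtype.ext (MulAction.injective (g i) (congrFun this i))

theorem norm_one {y : H} (h1 : y ^ p = 1) (hf : ∀ v : V, y • v = v → v = 1) (v : V) :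
    ∏ k ∈ Finset.range p, y ^ k • v = 1 := by
  apply hf
  have e1 := Finset.prod_range_succ (fun k => y ^ k • v) p
  have e2 := Finset.prod_range_succ' (fun k => y ^ k • v) p
  simp only [h1, pow_zero, one_smul] at e1 e2
  rw [e1] at e2
  conv_rhs => rw [mul_right_cancel e2]
  rw [Finset.smul_prod']
  exact Finset.prod_congr rfl fun k _ => by rw [← mul_smul, ← pow_succ']

theorem tors [Finite V] (hV : (Nat.card V).Coprime p) {v : V} {j : ℕ} (h : v ^ p ^ j = 1) : v = 1 := by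
  have h1 := orderOf_dvd_of_pow_eq_one h
  have h2 := orderOf_dvd_natCard v
  exact orderOf_eq_one_iff.1 (Nat.eq_one_of_dvd_coprimes (hV.pow_right j) h2 h1)

theorem rank2 [Finite V] (hV : (Nat.card V).Coprime p) (hp : 0 < p) {b c : H} (hbc : Commute b c)
    (hb : b ^ p = 1) (hc : c ^ p = 1) (h1 : ∀ i, ∀ v : V, (b * c ^ i) • v = v → v = 1)
    (h2 : ∀ k, 0 < k → k < p → ∀ v : V, (c ^ k) • v = v → v = 1) (v : V) : v = 1 := by
  have e1 : ∏ i ∈ Finset.range p, ∏ k ∈ Finset.range p, (b * c ^ i) ^ k • v = 1 :=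
    Finset.prod_eq_one fun i _ => norm_one (by
      rw [(hbc.pow_right i).mul_pow, hb, ← pow_mul, mul_comm i, pow_mul, hc]; simp) (h1 i) v
  rw [Finset.prod_comm, Finset.prod_eq_single 0 (fun k hk k0 => ?_) (by simp; omega)] at e1
  · apply tors hV (j := 1); simpa using e1
  · have := norm_one (p := p) (y := c ^ k) (by rw [← pow_mul, mul_comm, pow_mul, hc, one_pow])
      (h2 k (by omega) (Finset.mem_range.1 hk)) v
    rw [← smul_one (b ^ k), ← this, Finset.smul_prod']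
    exact Finset.prod_congr rfl fun i _ => by
      rw [(hbc.pow_right i).mul_pow, mul_smul, ← pow_mul, ← pow_mul, mul_comm]

theorem card_le_p [hp : Fact p.Prime] [Finite H] [Finite V] [Nontrivial V]
    (hV : (Nat.card V).Coprime p) (he : ∀ s : H, s ^ p = 1)
    (hs : ∀ s : H, s ≠ 1 → ∀ v : V, s • v = v → v = 1) : Nat.card H ≤ p := by
  by_contra hn
  push Not at hn
  have hP : IsPGroup p H := fun s => ⟨1, by simpa using he s⟩
  haveI : Nontrivial H := Finite.one_lt_card_iff_nontrivial.1 (hp.out.one_lt.trans hn)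
  obtain ⟨c, hc, hc1⟩ := (bot_or_exists_ne_one _).resolve_left hP.bot_lt_center.ne'
  have oc : orderOf c = p := orderOf_eq_prime (he c) hc1
  obtain ⟨b, hb⟩ : ∃ b, b ∉ zpowers c := by
    by_contra h; push Not at h
    have : zpowers c = ⊤ := (eq_top_iff' _).2 h
    have h2 := Nat.card_zpowers c
    rw [this, card_top, oc] at h2; omega
  obtain ⟨v, hv⟩ := exists_ne (1 : V)
  refine hv (rank2 hV hp.out.pos (mem_center_iff.1 hc b) (he b) (he c) (fun i => hs _ fun e => hb ?_)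
    (fun k k0 kp => hs _ (pow_ne_one_of_lt_orderOf k0.ne' (by rwa [oc]))) v)
  rw [eq_inv_of_mul_eq_one_left e]
  exact inv_mem (pow_mem (mem_zpowers c) i)

theorem index_le_p [hp : Fact p.Prime] [Finite H] [Finite V] [Nontrivial V]
    (hV : (Nat.card V).Coprime p) (he : ∀ s : H, s ^ p = 1) (D : Subgroup H)
    (h1 : ∀ g : H, ∀ v : V, v ≠ 1 → g • v = v → g ∈ D) (h2 : ∀ d ∈ D, ∀ v : V, d • v = v) :
    D.index ≤ p := by
  let φ := MulDistribMulAction.toMulAut H V
  have hk : φ.ker = D := by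
    ext g
    obtain ⟨v, hv⟩ := exists_ne (1 : V)
    exact ⟨fun h => h1 g v hv (DFunLike.congr_fun (MonoidHom.mem_ker.1 h) v),
      fun h => MonoidHom.mem_ker.2 (MulEquiv.ext (h2 g h))⟩
  rw [← hk, index_ker]
  refine card_le_p (V := V) hV ?_ ?_
  · rintro ⟨_, g, rfl⟩; apply Subtype.ext
    change φ g ^ p = 1
    rw [← map_pow, he, map_one]
  · rintro ⟨_, g, rfl⟩ hs v hv
    by_contra h
    have : g ∈ φ.ker := hk ▸ h1 g v h hv
    exact hs (Subtype.ext this)

@[reducible] def resAct (G₀ : Subgroup H) (U : Subgroup V) (h : ∀ g ∈ G₀, ∀ u ∈ U, g • u ∈ U) :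
    MulDistribMulAction G₀ U where
  smul g u := ⟨(g : H) • (u : V), h g g.2 u u.2⟩
  one_smul u := Subtype.ext (one_smul H (u : V))
  mul_smul a b u := Subtype.ext (mul_smul (a : H) (b : H) (u : V))
  smul_mul a u v := Subtype.ext (smul_mul' (a : H) (u : V) (v : V))
  smul_one a := Subtype.ext (smul_one (a : H))

@[reducible] def quoAct (U : Subgroup V) (h : ∀ g : H, ∀ u ∈ U, g • u ∈ U) :
    MulDistribMulAction H (V ⧸ U) where
  smul g := QuotientGroup.map U U (MulDistribMulAction.toMonoidHom V g) (fun u hu => h g u hu)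
  one_smul u := QuotientGroup.induction_on u fun v => congrArg QuotientGroup.mk (one_smul H v)
  mul_smul a b u := QuotientGroup.induction_on u fun v => congrArg QuotientGroup.mk (mul_smul a b v)
  smul_mul a u v := map_mul _ _ _
  smul_one a := map_one _

theorem relIndex_le_p [hp : Fact p.Prime] [Finite H] [Finite V] (hV : (Nat.card V).Coprime p)
    (C D : Subgroup H) (U : Subgroup V) (hU : U ≠ ⊥) (h : ∀ g ∈ C, ∀ u ∈ U, g • u ∈ U)
    (he : ∀ s ∈ C, s ^ p = 1) (h1 : ∀ g ∈ C, ∀ v ∈ U, v ≠ 1 → g • v = v → g ∈ D)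
    (h2 : ∀ d ∈ D, ∀ v ∈ U, d • v = v) : D.relIndex C ≤ p := by
  letI := resAct C U h
  haveI := (nontrivial_iff_ne_bot U).2 hU
  exact index_le_p (V := U) (hV.coprime_dvd_left (card_subgroup_dvd_card U))
    (fun s => Subtype.ext (he s s.2)) _
    (fun g v hv e => h1 g g.2 v v.2 (fun e' => hv (Subtype.ext e')) (congrArg Subtype.val e))
    (fun d hd v => Subtype.ext (h2 d hd v v.2))

theorem arith {p s n k c : ℕ} (hp : 3 ≤ p) (hs : 1 ≤ s) (h1 : n * (p - 1) ≤ k * c)
    (h2 : k ≤ p * (p * s) ^ 2) (h3 : c ^ p ≤ n) (h4 : (p + 1) ^ (p * s) ≤ n) : False := by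
  obtain ⟨r, rfl⟩ : ∃ r, p = r + 1 := ⟨p - 1, by omega⟩
  simp only [Nat.add_sub_cancel] at h1
  have n0 : 0 < n := lt_of_lt_of_le (by positivity) h4
  have a1 : (n * r) ^ (r + 1) ≤ k ^ (r + 1) * n := by
    calc _ ≤ (k * c) ^ (r + 1) := Nat.pow_le_pow_left h1 _
      _ = k ^ (r + 1) * c ^ (r + 1) := mul_pow _ _ _
      _ ≤ _ := Nat.mul_le_mul_left _ h3
  have a2 : n ^ r * r ^ (r + 1) ≤ k ^ (r + 1) := by
    refine Nat.le_of_mul_le_mul_right ?_ n0
    calc _ = (n * r) ^ (r + 1) := by ring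
      _ ≤ _ := a1
  have a3 : (((r + 2) ^ r) ^ s * r) ^ (r + 1) ≤ k ^ (r + 1) := by
    refine le_trans ?_ a2
    rw [mul_pow]
    refine Nat.mul_le_mul_right _ (le_trans (le_of_eq ?_) (Nat.pow_le_pow_left h4 r))
    rw [← pow_mul, ← pow_mul, ← pow_mul]; congr 1; ring
  have a4 := (Nat.pow_le_pow_iff_left (by omega)).1 a3
  have a5 : ∀ Q : ℕ, 4 ≤ Q → ∀ s, 1 ≤ s → Q * s ^ 2 ≤ Q ^ s := by
    intro Q hQ s hs
    induction s, hs using Nat.le_induction with
    | base => simp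
    | succ s hs ih =>
      calc Q * (s + 1) ^ 2 ≤ Q * (4 * s ^ 2) := Nat.mul_le_mul_left _ (by nlinarith)
        _ = Q * s ^ 2 * 4 := by ring
        _ ≤ Q ^ s * Q := Nat.mul_le_mul ih hQ
        _ = _ := (pow_succ _ _).symm
  have a6 : (r + 1) ^ 3 < (r + 2) ^ r * r := by
    rcases (show r = 2 ∨ 3 ≤ r by omega) with rfl | h
    · norm_num
    · calc (r + 1) ^ 3 < (r + 2) ^ 3 := Nat.pow_lt_pow_left (by omega) (by norm_num)
        _ ≤ (r + 2) ^ r := Nat.pow_le_pow_right (by omega) h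
        _ ≤ _ := Nat.le_mul_of_pos_right _ (by omega)
  have a7 := a5 ((r + 2) ^ r) (le_trans (by omega) (Nat.le_self_pow (by omega) _)) s hs
  have a8 : (r + 2) ^ r * r * s ^ 2 ≤ (r + 1) ^ 3 * s ^ 2 := by
    calc _ = (r + 2) ^ r * s ^ 2 * r := by ring
      _ ≤ ((r + 2) ^ r) ^ s * r := Nat.mul_le_mul_right _ a7
      _ ≤ k := a4
      _ ≤ _ := h2
      _ = _ := by ring
  have := Nat.le_of_mul_le_mul_right a8 (by positivity)
  omega

end Cfsg.Agent.Cov
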