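import Cfsg.Agent.Cov.A

set_option autoImplicit false
set_option linter.unusedVariables false
set_option linter.unusedSectionVars false
set_option linter.unusedSimpArgs false
set_option linter.style.haveILetI false

namespace Cfsg.Agent.Cov
open Subgroup
open scoped commutatorElement IsMulCommutative

variable {K V : Type*} [Group K] [CommGroup V] [MulDistribMulAction K V] {p : ℕ}

theorem conj_eq (hz : ∀ x y : K, ⁅x, y⁆ ∈ center K) (g d : K) :
    ∃ z ∈ center K, g * d * g⁻¹ = z * d :=
  ⟨⁅g, d⁆, hz g d, by rw [commutatorElement_def]; group⟩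

theorem dual_bound [hp : Fact p.Prime] [Finite K] (hz : ∀ x y : K, ⁅x, y⁆ ∈ center K)
    (hZ : Nat.card (center K) = p) (D : Subgroup K) (hD : ∀ d ∈ D, d ∈ center K → d = 1) :
    Nat.card D ≤ (centralizer (D : Set K)).index := by
  set C := centralizer (D : Set K) with hC
  have hZC : center K ≤ C := center_le_centralizer _
  haveI : C.Normal := ⟨fun c hc g => by
    obtain ⟨z, hz', e⟩ := conj_eq hz g c
    rw [e]; exact mul_mem (hZC hz') hc⟩
  letI : CommGroup (K ⧸ C) := { (inferInstance : Group (K ⧸ C)) with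
    mul_comm := fun a b => QuotientGroup.induction_on a fun x => QuotientGroup.induction_on b fun y => by
      rw [← QuotientGroup.mk_mul, ← QuotientGroup.mk_mul, QuotientGroup.eq]
      have := hZC (hz y⁻¹ x⁻¹)
      simpa [commutatorElement_def, mul_assoc] using this }
  haveI : Nontrivial (center K) := Finite.one_lt_card_iff_nontrivial.1 (hZ ▸ hp.out.one_lt)
  obtain ⟨z₀, hz₀⟩ := exists_ne (1 : center K)
  obtain ⟨χ, hχ⟩ := CommGroup.exists_apply_ne_one_of_hasEnoughRootsOfUnity (center K) ℂ hz₀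
  haveI : Fact (Nat.card (center K)).Prime := ⟨hZ ▸ hp.out⟩
  have hk : χ.ker = ⊥ := (χ.ker.eq_bot_or_eq_top_of_prime_card).resolve_right fun e =>
    hχ (MonoidHom.mem_ker.1 (e ▸ mem_top z₀))
  have inj := (MonoidHom.ker_eq_bot_iff χ).1 hk
  have cm : ∀ d x y : K, ⁅d, x * y⁆ = ⁅d, x⁆ * ⁅d, y⁆ := by
    intro d x y
    have := mem_center_iff.1 (hz d y) x
    calc ⁅d, x * y⁆ = ⁅d, x⁆ * (x * ⁅d, y⁆) * x⁻¹ := by simp only [commutatorElement_def]; group
      _ = _ := by rw [this]; group
  let φ : K → K →* ℂˣ := fun d => MonoidHom.mk' (fun x => χ ⟨⁅d, x⁆, hz d x⟩) fun x y => by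
    rw [← map_mul]; congr 1; exact Subtype.ext (cm d x y)
  let ψ : D → (K ⧸ C →* ℂˣ) := fun d => QuotientGroup.lift C (φ d) fun c hc => by
    change χ ⟨⁅(d : K), c⁆, _⟩ = 1
    rw [← map_one χ]; congr 1
    exact Subtype.ext (commutatorElement_eq_one_iff_mul_comm.2 (hc d d.2))
  rw [index, ← CommGroup.card_monoidHom_of_hasEnoughRootsOfUnity (K ⧸ C) ℂ]
  haveI : Finite (K ⧸ C →* ℂˣ) := Nat.finite_of_card_ne_zero (by
    rw [CommGroup.card_monoidHom_of_hasEnoughRootsOfUnity]; exact Nat.card_pos.ne')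
  refine Nat.card_le_card_of_injective ψ fun d d' e => ?_
  have h1 : ∀ x : K, ⁅(d : K), x⁆ = ⁅(d' : K), x⁆ := fun x =>
    congrArg Subtype.val (inj (DFunLike.congr_fun e (x : K ⧸ C)))
  have := hD _ (mul_mem (inv_mem d'.2) d.2) (mem_center_iff.2 fun x => by
    have := h1 x
    simp only [commutatorElement_def, mul_left_inj] at this
    calc x * ((d' : K)⁻¹ * d) = (d' : K)⁻¹ * (d' * x * (d' : K)⁻¹) * d := by group
      _ = _ := by rw [← this]; group)
  exact Subtype.ext (inv_mul_eq_one.1 this).symm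

theorem es [hp : Fact p.Prime] [Finite K] [Finite V] [Nontrivial V] (hV : (Nat.card V).Coprime p)
    (hp2 : p ≠ 2) (he : ∀ k : K, k ^ p = 1) (hz : ∀ x y : K, ⁅x, y⁆ ∈ center K)
    (hs : ∀ z ∈ center K, z ≠ 1 → ∀ v : V, z • v = v → v = 1) {a : K} (ha : a ∉ center K)
    (hc : ∀ v : V, ∃ x : K, x ≠ 1 ∧ x • v = v ∧
      Nat.card (fx V (zpowers x)) = Nat.card (fx V (zpowers a))) : False := by
  classical
  have p3 : 3 ≤ p := by have := hp.out.two_le; omega
  have hP : IsPGroup p K := fun s => ⟨1, by simpa using he s⟩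
  obtain ⟨k, hk⟩ : ∃ k, ⁅k, a⁆ ≠ 1 := by
    by_contra h; push Not at h
    exact ha (mem_center_iff.2 fun k => commutatorElement_eq_one_iff_mul_comm.1 (h k))
  set z := ⁅k, a⁆ with hzd
  have zc : z ∈ center K := hz k a
  have oz : orderOf z = p := orderOf_eq_prime (he z) hk
  have hZ : Nat.card (center K) = p := by
    refine le_antisymm (card_le_p (V := V) hV (fun s => Subtype.ext (he s))
      fun s h1 v hv => hs s s.2 (fun e => h1 (Subtype.ext e)) v hv) ?_
    rw [← oz, ← Nat.card_zpowers]; exact card_le_of_le (zpowers_le.2 zc)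
  have cc : ∀ z₁ ∈ center K, ∀ z₂ ∈ center K, ∀ x y : K, x * y = y * x →
      z₁ * x * (z₂ * y) = z₂ * y * (z₁ * x) := by
    intro z₁ h₁ z₂ h₂ x y e
    have c1 : ∀ u, Commute z₁ u := fun u => (mem_center_iff.1 h₁ u).symm
    have c2 : ∀ u, Commute z₂ u := fun u => (mem_center_iff.1 h₂ u).symm
    exact (c1 _).mul_left (Commute.mul_right (c2 x).symm e)
  -- (i)
  have h3 : Nat.card (fx V (zpowers a)) ^ p ≤ Nat.card V := by
    have e : ∀ i : ℕ, k ^ i * a * (k ^ i)⁻¹ = z ^ i * a := by
      intro i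
      induction i with
      | zero => simp
      | succ i ih =>
        calc _ = k * (k ^ i * a * (k ^ i)⁻¹) * k⁻¹ := by group
          _ = (k * z ^ i) * a * k⁻¹ := by rw [ih]; group
          _ = z ^ i * (z * a) := by
            rw [mem_center_iff.1 (pow_mem zc i) k, hzd, commutatorElement_def]; group
          _ = _ := by group
    have := indep_card (V := V) (fun i : Fin p => zpowers (z ^ (i : ℕ) * a))
      (fun i j y hy y' hy' => by
        obtain ⟨m, rfl⟩ := hy; obtain ⟨n, rfl⟩ := hy'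
        exact Commute.zpow_zpow (cc _ (pow_mem zc _) _ (pow_mem zc _) a a rfl) m n)
      (fun i j hij v h1 h2 => by
        rw [mem_fx_zpowers, mul_smul] at h1 h2
        refine hs ((z ^ (i : ℕ)) * (z ^ (j : ℕ))⁻¹) (mul_mem (pow_mem zc _) (inv_mem (pow_mem zc _)))
          (fun e => hij (Fin.ext (pow_injOn_Iio_orderOf (by rw [oz]; exact i.2)
            (by rw [oz]; exact j.2) (mul_inv_eq_one.1 e)))) v ?_
        conv_lhs => rw [← h2]
        rw [mul_smul, inv_smul_smul, h1])
      (fx V (zpowers a)) (fun i => k ^ (i : ℕ)) (fun i u hu => by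
        rw [mem_fx_zpowers] at hu ⊢
        rw [← e, mul_smul, mul_smul, inv_smul_smul, hu])
    simpa using this
  -- (ii)
  obtain ⟨D, hD, hmax⟩ := exists_maximal_of_wellFoundedGT (fun D : Subgroup K => fx V D ≠ ⊥)
    ⟨⊥, fun e => by
      obtain ⟨v, hv⟩ := exists_ne (1 : V)
      exact hv ((eq_bot_iff_forall _).1 e v fun d hd => by rw [mem_bot.1 hd, one_smul])⟩
  obtain ⟨u, hu, hu1⟩ := (bot_or_exists_ne_one _).resolve_left hD
  have mx : ∀ E : Subgroup K, ∀ v : V, v ≠ 1 → v ∈ fx V D → v ∈ fx V E → E ≤ D := fun E v v1 h1 h2 =>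
    le_sup_right.trans (hmax (fun e => v1 ((eq_bot_iff_forall _).1 e v (mem_fx_sup h1 h2))) le_sup_left)
  have DZ : ∀ d ∈ D, d ∈ center K → d = 1 := fun d h1 h2 => by
    by_contra h; exact hu1 (hs d h2 h u (hu d h1))
  have Dc : ∀ d ∈ D, ∀ d' ∈ D, d * d' = d' * d := fun d h1 d' h2 =>
    commutatorElement_eq_one_iff_mul_comm.1 (DZ _ (mul_mem (mul_mem (mul_mem h1 h2) (inv_mem h1))
      (inv_mem h2)) (hz d d'))
  set C := centralizer (D : Set K) with hC
  have DC : D ≤ C := fun d hd d' hd' => Dc d' hd' d hd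
  have CU : ∀ g ∈ C, ∀ v ∈ fx V D, g • v ∈ fx V D := fun g hg v hv d hd => by
    rw [← mul_smul, hg d hd, mul_smul, hv d hd]
  have b1 : D.relIndex C ≤ p := relIndex_le_p hV C D (fx V D) hD CU (fun s _ => he s)
    (fun g _ v hv v1 e => mx (zpowers g) v v1 hv (mem_fx_zpowers.2 e) (mem_zpowers g))
    (fun d hd v hv => hv d hd)
  have b2 := dual_bound hz hZ D DZ
  have b3 : Nat.card K ≤ p * C.index ^ 2 := by
    rw [← D.card_mul_index, ← relIndex_mul_index DC]
    calc _ ≤ C.index * (p * C.index) := Nat.mul_le_mul b2 (Nat.mul_le_mul_right _ b1)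
      _ = _ := by ring
  have b4 : p + 1 ≤ Nat.card (fx V D) := by
    let f : Option (center K) → fx V D := fun o => o.elim 1 fun s =>
      ⟨(s : K) • u, CU s (center_le_centralizer _ s.2) u hu⟩
    have ne : ∀ s : K, s • u ≠ 1 := fun s e => hu1 (by rw [← inv_smul_smul s u, e, smul_one])
    have := Nat.card_le_card_of_injective f (by
      rintro (_ | s) (_ | t) e
      · rfl
      · exact absurd (congrArg Subtype.val e).symm (ne t)
      · exact absurd (congrArg Subtype.val e) (ne s)
      · have e' : (s : K) • u = (t : K) • u := congrArg Subtype.val e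
        congr 1
        by_contra h
        exact hu1 (hs ((t : K)⁻¹ * s) (mul_mem (inv_mem t.2) s.2)
          (fun e2 => h (Subtype.ext (inv_mul_eq_one.1 e2).symm)) u (by
            rw [mul_smul, e', inv_smul_smul])))
    rwa [Finite.card_option, hZ] at this
  have b5 : Nat.card (fx V D) ^ C.index ≤ Nat.card V := by
    refine indep_card (ι := K ⧸ C) (fun q => D.map (MulAut.conj q.out).toMonoidHom) ?_ ?_ (fx V D)
      (fun q => q.out) ?_
    · rintro i j _ ⟨d, hd, rfl⟩ _ ⟨d', hd', rfl⟩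
      obtain ⟨z₁, h₁, e₁⟩ := conj_eq hz i.out d
      obtain ⟨z₂, h₂, e₂⟩ := conj_eq hz j.out d'
      change i.out * d * i.out⁻¹ * (j.out * d' * j.out⁻¹) = j.out * d' * j.out⁻¹ * (i.out * d * i.out⁻¹)
      rw [e₁, e₂]; exact cc _ h₁ _ h₂ _ _ (Dc d hd d' hd')
    · intro i j hij v h1 h2
      by_contra v1
      apply hij
      rw [← i.out_eq, ← j.out_eq]
      refine Quotient.sound (QuotientGroup.leftRel_apply.2 fun d hd => ?_)
      have := mx (D.map (MulAut.conj (i.out⁻¹ * j.out)).toMonoidHom) (i.out⁻¹ • v)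
        (fun e => v1 (by rw [← smul_inv_smul i.out v, e, smul_one]))
        (fun d hd => by
          have := h1 _ ⟨d, hd, rfl⟩
          change (i.out * d * i.out⁻¹) • v = v at this
          rw [eq_inv_smul_iff, ← mul_smul, ← mul_smul, this])
        (by
          rintro _ ⟨d, hd, rfl⟩
          have := h2 _ ⟨d, hd, rfl⟩
          change (j.out * d * j.out⁻¹) • v = v at this
          change (i.out⁻¹ * j.out * d * (i.out⁻¹ * j.out)⁻¹) • i.out⁻¹ • v = _
          rw [← mul_smul]
          conv_rhs => rw [← this, ← mul_smul]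
          congr 1; group) ⟨d, hd, rfl⟩
      exact (commutatorElement_eq_one_iff_mul_comm.1 (DZ _ (mul_mem this (inv_mem hd)) (hz _ d))).symm
    · rintro q v hv _ ⟨d, hd, rfl⟩
      change (q.out * d * q.out⁻¹) • _ = _
      rw [mul_smul, inv_smul_smul, mul_smul, hv d hd]
  obtain ⟨s, hs'⟩ : p ∣ C.index := by
    obtain ⟨j, hj⟩ := hP.index C
    rw [hj]
    refine dvd_pow_self p fun j0 => ha ?_
    rw [hj, j0] at b3
    rw [eq_top_of_le_card (center K) (by rw [hZ]; simpa using b3)]; trivial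
  have s1 : 1 ≤ s := Nat.pos_of_ne_zero (by rintro rfl; exact C.index_ne_zero_of_finite hs')
  -- (iii)
  haveI := Fintype.ofFinite V
  haveI := Fintype.ofFinite K
  have h1 := Finset.card_mul_le_card_mul (s := (Finset.univ : Finset V)) (t := (Finset.univ : Finset K))
    (fun v y => y • v = v ∧ Nat.card (fx V (zpowers y)) = Nat.card (fx V (zpowers a)))
    (m := p - 1) (n := Nat.card (fx V (zpowers a))) (fun v _ => by
      obtain ⟨x, x1, h1, h2⟩ := hc v
      have ox : orderOf x = p := orderOf_eq_prime (he x) x1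
      rw [← Nat.card_Ico 1 p]
      refine Finset.card_le_card_of_injOn (fun i => x ^ i) (fun i hi => ?_) (fun i hi j hj e =>
        pow_injOn_Iio_orderOf (by rw [ox]; exact (Finset.mem_Ico.1 hi).2)
          (by rw [ox]; exact (Finset.mem_Ico.1 hj).2) e)
      have hi' := Finset.mem_Ico.1 hi
      simp only [Finset.coe_bipartiteAbove, Finset.mem_univ, true_and, Set.mem_setOf_eq]
      refine ⟨mem_fx_zpowers.2 h1 _ (pow_mem (mem_zpowers x) i), ?_⟩
      rw [← h2, show zpowers (x ^ i) = zpowers x from le_antisymm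
        (zpowers_le.2 (pow_mem (mem_zpowers x) i)) (zpowers_le.2 (mem_zpowers_pow_iff.2 (by
          rw [ox]; exact (Nat.coprime_of_lt_prime (by omega) hi'.2 hp.out).symm)))])
    (fun y _ => by
      by_cases h : Nat.card (fx V (zpowers y)) = Nat.card (fx V (zpowers a))
      · refine le_trans ?_ h.le
        conv_rhs => rw [Nat.card_eq_fintype_card, Fintype.card_subtype]
        refine Finset.card_le_card fun v hv => ?_
        simp only [Finset.mem_bipartiteBelow, Finset.mem_univ, true_and, Finset.mem_filter] at hv ⊢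
        exact mem_fx_zpowers.2 hv.1
      · rw [Finset.card_eq_zero.2 (Finset.eq_empty_of_forall_notMem fun v hv =>
          h (Finset.mem_bipartiteBelow _ |>.1 hv).2.2)]; omega)
  rw [Finset.card_univ, Finset.card_univ, ← Nat.card_eq_fintype_card, ← Nat.card_eq_fintype_card] at h1
  rw [hs'] at b3 b5
  exact arith p3 s1 h1 b3 h3 ((Nat.pow_le_pow_left b4 _).trans b5)

end Cfsg.Agent.Cov
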