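import Cfsg.Agent.Cov.B
import Cfsg.Agent.S3762
import Cfsg.Agent.Transfer.POdd

set_option autoImplicit false
set_option linter.unusedVariables false
set_option linter.unusedSectionVars false
set_option linter.unusedSimpArgs false
set_option linter.style.haveILetI false

namespace Cfsg.Agent.Cov
open Subgroup
open scoped commutatorElement IsMulCommutative

universe u

section
variable {H V : Type*} [Group H] [CommGroup V] [MulDistribMulAction H V] {p : ℕ}

theorem cyc_of_semireg [hp : Fact p.Prime] [Finite H] [Finite V] [Nontrivial V]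
    (hV : (Nat.card V).Coprime p) (hp2 : p ≠ 2) (hH : IsPGroup p H)
    (hs : ∀ s : H, s ≠ 1 → ∀ v : V, s • v = v → v = 1) : IsCyclic H := by
  by_contra hn
  obtain ⟨A, -, h1, h2⟩ := Transfer.exists_normal_elementary_sq hp2 hH hn
  have := card_le_p (H := A) (V := V) hV (fun s => Subtype.ext (h1.2 s s.2))
    fun s s1 v hv => hs s (fun e => s1 (Subtype.ext e)) v hv
  have h3 := hp.out.one_lt
  rw [h2] at this; nlinarith

theorem comm_central {K : Type*} [Group K] [Finite K] [hp : Fact p.Prime] (hp2 : p ≠ 2)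
    (hK : IsPGroup p K)
    (h : ∀ A : Subgroup K, A.Characteristic → IsMulCommutative A → IsCyclic A) (x y : K) :
    ⁅x, y⁆ ∈ center K ∧ ⁅x, y⁆ ^ p = 1 := by
  obtain ⟨E, R, h1, h2, h3, h4⟩ := S3762.result hK h
  have hR : IsCyclic R := h4.resolve_right fun h => hp2 h.1
  have RZ : R ≤ center K := fun r hr => mem_center_iff.2 fun g => by
    have : (⊤ : Subgroup K) ≤ centralizer {r} := by
      rw [← h2]
      refine sup_le (fun e he => mem_centralizer_singleton_iff.2 (h1 e he r hr)) fun s hs =>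
        mem_centralizer_singleton_iff.2 ?_
      exact congrArg Subtype.val (mul_comm (⟨s, hs⟩ : R) ⟨r, hr⟩)
    exact mem_centralizer_singleton_iff.1 (this (mem_top g))
  haveI := PGrp.normal_of_le_center RZ
  have dec : ∀ g : K, ∃ e ∈ E, ∃ r ∈ R, e * r = g := fun g => by
    have : g ∈ ((E ⊔ R : Subgroup K) : Set K) := by rw [h2]; trivial
    rw [mul_normal] at this
    exact this
  obtain ⟨e, he, r, hr, rfl⟩ := dec x
  obtain ⟨e', he', r', hr', rfl⟩ := dec y
  have c : ⁅e * r, e' * r'⁆ = ⁅e, e'⁆ := by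
    have c1 := mem_center_iff.1 (RZ hr)
    have c2 := mem_center_iff.1 (RZ hr')
    calc _ = e * (r * (e' * r')) * r⁻¹ * (e⁻¹ * r'⁻¹) * e'⁻¹ := by
          simp only [commutatorElement_def]; group
      _ = e * e' * (r' * e⁻¹) * r'⁻¹ * e'⁻¹ := by rw [← c1]; group
      _ = _ := by rw [← c2, commutatorElement_def]; group
  rw [c]
  rcases h3 with rfl | h3
  · rw [mem_bot.1 he]; simp
  · have hc : ⁅(⟨e, he⟩ : E), (⟨e', he'⟩ : E)⁆ ∈ center E := by
      rw [← h3.1.2.2]; exact commutator_mem_commutator (mem_top _) (mem_top _)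
    constructor
    · refine mem_center_iff.2 fun g => ?_
      obtain ⟨f, hf, s, hs, rfl⟩ := dec g
      have : f * ⁅e, e'⁆ = ⁅e, e'⁆ * f := congrArg Subtype.val (mem_center_iff.1 hc ⟨f, hf⟩)
      rw [mul_assoc, ← mem_center_iff.1 (RZ hs), ← mul_assoc, this, mul_assoc]
    · have := pow_card_eq_one' (x := (⟨_, hc⟩ : center E))
      rw [h3.2] at this
      exact congrArg (fun t : center E => ((t : E) : K)) this

theorem prim [hp : Fact p.Prime] [Finite H] [Finite V] [Nontrivial V]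
    (hV : (Nat.card V).Coprime p) (hp2 : p ≠ 2) (K : Subgroup H) [hn : K.Normal] (hK : IsPGroup p K)
    (hs : ∀ B : Subgroup H, B ≤ K → B.Normal → (∀ x ∈ B, ∀ y ∈ B, x * y = y * x) →
      ∀ b ∈ B, b ≠ 1 → ∀ v : V, b • v = v → v = 1) {a : H} (ha : a ∈ K) (a1 : a ≠ 1) (ap : a ^ p = 1)
    (hc : ∀ v : V, ∃ h : H, (h * a * h⁻¹) • v = v) : False := by
  have ch : ∀ L : Subgroup H, L ≤ K → L.Normal → ∀ A : Subgroup L, A.Characteristic →
      IsMulCommutative A → ∀ b ∈ A, b ≠ 1 → ∀ v : V, (b : H) • v = v → v = 1 := by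
    intro L hL hLn A h1 h2 b hb b1
    refine hs (A.map L.subtype) ((map_subtype_le A).trans hL) inferInstance ?_ b ⟨b, hb, rfl⟩
      fun e => b1 (Subtype.ext e)
    rintro _ ⟨x, hx, rfl⟩ _ ⟨y, hy, rfl⟩
    exact congrArg (fun t : A => ((t : L) : H)) (mul_comm (⟨x, hx⟩ : A) ⟨y, hy⟩)
  have cc := comm_central hp2 hK fun A h1 h2 => cyc_of_semireg (V := V) hV hp2 (hK.to_subgroup A)
    fun s s1 v hv => ch K le_rfl hn A h1 h2 s s.2 (fun e => s1 (Subtype.ext e)) v hv
  have cz : ∀ x ∈ K, ∀ y ∈ K, ∀ w ∈ K, w * ⁅x, y⁆ = ⁅x, y⁆ * w := fun x hx y hy w hw =>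
    congrArg Subtype.val (mem_center_iff.1 (cc ⟨x, hx⟩ ⟨y, hy⟩).1 ⟨w, hw⟩)
  let L : Subgroup H :=
    { carrier := {x | x ∈ K ∧ x ^ p = 1}
      one_mem' := ⟨one_mem _, one_pow _⟩
      inv_mem' := fun h => ⟨inv_mem h.1, by rw [inv_pow, h.2, inv_one]⟩
      mul_mem' := fun {x y} hx hy => ⟨mul_mem hx.1 hy.1, by
        rw [PGrp.mul_pow_of_commute_commutator (cz y hy.1 x hx.1 x hx.1).symm
          (cz y hy.1 x hx.1 y hy.1).symm, hx.2, hy.2]
        obtain ⟨c, hc⟩ := hp.out.dvd_choose_self (k := 2) (by norm_num)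
          (by have := hp.out.two_le; omega)
        have : ⁅y, x⁆ ^ p = 1 := congrArg Subtype.val (cc ⟨y, hy.1⟩ ⟨x, hx.1⟩).2
        rw [hc, pow_mul, this]; simp⟩ }
  have LK : L ≤ K := fun x hx => hx.1
  have Ln : L.Normal := ⟨fun x hx g => ⟨hn.conj_mem x hx.1 g, by rw [conj_pow, hx.2]; simp⟩⟩
  have aL : a ∈ L := ⟨ha, ap⟩
  have hz := ch L LK Ln (center L) inferInstance inferInstance
  have ne : ∀ h : H, h * a * h⁻¹ ≠ 1 := fun h e => a1 (by simpa using e)
  by_cases h : (⟨a, aL⟩ : L) ∈ center L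
  · obtain ⟨v, hv⟩ := exists_ne (1 : V)
    obtain ⟨g, hg⟩ := hc v
    refine hv (hz ⟨_, Ln.conj_mem a aL g⟩ (mem_center_iff.2 fun x => Subtype.ext ?_)
      (fun e => ne g (congrArg Subtype.val e)) v hg)
    have : g⁻¹ * x * g⁻¹⁻¹ * a = a * (g⁻¹ * x * g⁻¹⁻¹) :=
      congrArg Subtype.val (mem_center_iff.1 h ⟨_, Ln.conj_mem x x.2 g⁻¹⟩)
    change (x : H) * (g * a * g⁻¹) = g * a * g⁻¹ * x
    calc _ = g * (g⁻¹ * x * g⁻¹⁻¹ * a) * g⁻¹ := by group
      _ = _ := by rw [this]; group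
  · refine es (K := L) (V := V) hV hp2 (fun k => Subtype.ext k.2.2)
      (fun x y => mem_center_iff.2 fun w => Subtype.ext (cz x x.2.1 y y.2.1 w w.2.1)) hz h fun v => ?_
    obtain ⟨g, hg⟩ := hc v
    refine ⟨⟨_, Ln.conj_mem a aL g⟩, fun e => ne g (congrArg Subtype.val e), hg, Nat.card_congr
      ⟨fun w => ⟨g⁻¹ • (w : V), mem_fx_zpowers.2 ?_⟩, fun w => ⟨g • (w : V), mem_fx_zpowers.2 ?_⟩,
        fun w => by simp, fun w => by simp⟩⟩
    · have : (g * a * g⁻¹) • (w : V) = w := (mem_fx_zpowers (H := L)).1 w.2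
      change a • g⁻¹ • (w : V) = g⁻¹ • (w : V)
      rw [eq_inv_smul_iff, ← mul_smul, ← mul_smul, this]
    · have : a • (w : V) = w := (mem_fx_zpowers (H := L)).1 w.2
      change (g * a * g⁻¹) • g • (w : V) = g • (w : V)
      rw [mul_smul, inv_smul_smul, mul_smul, this]

end

theorem lt_card {V : Type*} [Group V] [Finite V] {U : Subgroup V} (h : U ≠ ⊤) :
    Nat.card U < Nat.card V :=
  lt_of_not_ge fun e => h (eq_top_of_le_card U e)

def P (p n : ℕ) : Prop := ∀ (V H : Type u) [CommGroup V] [Finite V] [Group H] [MulDistribMulAction H V],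
  Nat.card V < n → (Nat.card V).Coprime p → ∀ K : Subgroup H, K.Normal →
  (∀ k ∈ K, ∃ j, ∀ v : V, k ^ p ^ j • v = v) → ∀ a ∈ K, (∀ v : V, ∃ h : H, (h * a * h⁻¹) • v = v) →
  ∀ v : V, a • v = v

variable {H V : Type u} [Group H] [CommGroup V] [MulDistribMulAction H V] {p : ℕ}

theorem imprim [hp : Fact p.Prime] [Finite H] [Finite V] (hV : (Nat.card V).Coprime p) (hp2 : p ≠ 2)
    (ih : P.{u} p (Nat.card V)) (hf : ∀ g : H, (∀ v : V, g • v = v) → g = 1)
    (hi : ∀ W : Subgroup V, (∀ g : H, ∀ w ∈ W, g • w ∈ W) → W = ⊥ ∨ W = ⊤)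
    (K : Subgroup H) [hn : K.Normal] (hK : IsPGroup p K) (B : Subgroup H) [hB : B.Normal]
    (Bc : ∀ x ∈ B, ∀ y ∈ B, x * y = y * x) {b : H} (hb : b ∈ B) (b1 : b ≠ 1) {v₀ : V} (hv₀ : b • v₀ = v₀)
    (v₀1 : v₀ ≠ 1) {a : H} (ha : a ∈ K) (hc : ∀ v : V, ∃ h : H, (h * a * h⁻¹) • v = v) : a = 1 := by
  classical
  have kp : ∀ k ∈ K, ∃ j, k ^ p ^ j = 1 := fun k hk => (hK ⟨k, hk⟩).imp fun j e => congrArg Subtype.val e
  obtain ⟨D, ⟨DB, hD⟩, hmax⟩ := exists_maximal_of_wellFoundedGT (fun D : Subgroup H => D ≤ B ∧ fx V D ≠ ⊥)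
    ⟨zpowers b, zpowers_le.2 hb, fun e => v₀1 ((eq_bot_iff_forall _).1 e v₀ (mem_fx_zpowers.2 hv₀))⟩
  have mx : ∀ E ≤ B, ∀ v : V, v ≠ 1 → v ∈ fx V D → v ∈ fx V E → E ≤ D := fun E hE v v1 h1 h2 =>
    le_sup_right.trans (hmax ⟨sup_le DB hE,
      fun e => v1 ((eq_bot_iff_forall _).1 e v (mem_fx_sup h1 h2))⟩ le_sup_left)
  have D0 : D ≠ ⊥ := by
    rintro rfl
    exact b1 (mem_bot.1 (mx _ (zpowers_le.2 hb) v₀ v₀1 (fun d hd => by rw [mem_bot.1 hd, one_smul])
      (mem_fx_zpowers.2 hv₀) (mem_zpowers b)))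
  have UT : fx V D ≠ ⊤ := fun e => D0 ((eq_bot_iff_forall _).2 fun d hd => hf d fun v =>
    (e ▸ mem_top v : v ∈ fx V D) d hd)
  set N := normalizer (D : Set H) with hN
  have NU : ∀ g ∈ N, ∀ v ∈ fx V D, g • v ∈ fx V D := fun g hg v hv d hd => by
    have := hv _ ((mem_normalizer_iff''.1 hg d).1 hd)
    rw [mul_smul, mul_smul, inv_smul_eq_iff] at this
    exact this
  haveI := Fintype.ofFinite (H ⧸ N)
  let Y : H ⧸ N → Subgroup H := fun q => D.map (MulAut.conj q.out).toMonoidHom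
  have Y0 : ∀ g : H, ∀ v : V, v ∈ fx V (D.map (MulAut.conj g).toMonoidHom) ↔ g⁻¹ • v ∈ fx V D := by
    intro g v
    constructor
    · intro h d hd
      have : (g * d * g⁻¹) • v = v := h _ ⟨d, hd, rfl⟩
      rw [eq_inv_smul_iff, ← mul_smul, ← mul_smul, this]
    · rintro h _ ⟨d, hd, rfl⟩
      change (g * d * g⁻¹) • v = v
      rw [mul_smul, mul_smul, h d hd, smul_inv_smul]
  have YB : ∀ g : H, D.map (MulAut.conj g).toMonoidHom ≤ B := by
    rintro g _ ⟨d, hd, rfl⟩; exact hB.conj_mem d (DB hd) g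
  have hY : ∀ g : H, ∀ v : V, v ∈ fx V (Y (g : H ⧸ N)) ↔ g⁻¹ • v ∈ fx V D := by
    intro g v
    obtain ⟨n, e⟩ := QuotientGroup.mk_out_eq_mul N g
    rw [Y0, e, mul_inv_rev, mul_smul]
    exact ⟨fun h => by simpa using NU n n.2 _ h, NU _ (inv_mem n.2) _⟩
  have hY' : ∀ x : H, ∀ q, ∀ v ∈ fx V (Y q), x • v ∈ fx V (Y (x • q)) := by
    intro x q v
    induction q using QuotientGroup.induction_on with | _ g =>
    rw [MulAction.Quotient.smul_mk, hY, hY]
    simp [mul_smul]
  have dj : ∀ i j, i ≠ j → ∀ v : V, v ∈ fx V (Y i) → v ∈ fx V (Y j) → v = 1 := by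
    intro i j hij v h1 h2
    by_contra v1
    apply hij
    rw [← i.out_eq, ← j.out_eq]
    refine Quotient.sound (QuotientGroup.leftRel_apply.2 (mem_normalizer_fintype fun d hd => ?_))
    exact mx (D.map (MulAut.conj (i.out⁻¹ * j.out)).toMonoidHom) (YB _) (i.out⁻¹ • v)
      (fun e => v1 (by rw [← smul_inv_smul i.out v, e, smul_one])) ((Y0 _ _).1 h1)
      ((Y0 _ _).2 (by simpa [mul_smul] using (Y0 _ _).1 h2)) ⟨d, hd, rfl⟩
  have key : ∀ w : H ⧸ N → V, (∀ q, w q ∈ fx V (Y q)) → ∀ x : H, x • ∏ q, w q = ∏ q, w q →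
      ∀ q, x • w (x⁻¹ • q) = w q := by
    intro w hw x e
    refine congrFun (indep_inj Y (fun i j y hy y' hy' => Bc _ (YB _ hy) _ (YB _ hy')) dj
      (fun q => x • w (x⁻¹ • q)) w (fun q => by simpa using hY' x _ _ (hw (x⁻¹ • q))) hw ?_)
    rw [← e, Finset.smul_prod']
    exact Fintype.prod_equiv (MulAction.toPerm x⁻¹) _ _ fun q => rfl
  have hout : ∀ q : H ⧸ N, ∀ u ∈ fx V D, q.out • u ∈ fx V (Y q) := fun q u hu =>
    (Y0 _ _).2 (by simpa using hu)
  obtain ⟨u, hu, u1⟩ := (bot_or_exists_ne_one _).resolve_left hD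
  have ne : ∀ s : H, s • u ≠ 1 := fun s e => u1 (by rw [← inv_smul_smul s u, e, smul_one])
  -- `a` fixes all cosets
  have hA : ∀ q : H ⧸ N, a • q = q := by
    have c3 : 3 ≤ Nat.card (fx V D) := by
      obtain ⟨c, hc, cD⟩ : ∃ c ∈ B, c ∉ D := by
        by_contra h; push Not at h
        obtain rfl : D = B := le_antisymm DB h
        rcases hi (fx V D) (fun g w hw => NU g (by rw [hN, normalizer_eq_top]; trivial) w hw) with h | h
        exacts [hD h, UT h]
      have cu : c • u ∈ fx V D := fun d hd => by rw [← mul_smul, Bc d (DB hd) c hc, mul_smul, hu d hd]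
      have cu' : c • u ≠ u := fun e => cD (mx _ (zpowers_le.2 hc) u u1 hu (mem_fx_zpowers.2 e)
        (mem_zpowers c))
      haveI := Fintype.ofFinite (fx V D)
      rw [Nat.card_eq_fintype_card]
      exact Fintype.two_lt_card_iff.2 ⟨1, ⟨u, hu⟩, ⟨_, cu⟩, fun e => u1 (congrArg Subtype.val e).symm,
        fun e => ne c (congrArg Subtype.val e).symm, fun e => cu' (congrArg Subtype.val e).symm⟩
    have c4 := indep_card (V := V) Y (fun i j y hy y' hy' => Bc _ (YB _ hy) _ (YB _ hy')) dj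
      (fx V D) (fun q => q.out) hout
    letI : MulDistribMulAction H (H ⧸ N → ℤˣ) := arrowMulDistribMulAction
    have cW : Nat.card (H ⧸ N → ℤˣ) = 2 ^ Nat.card (H ⧸ N) := by
      rw [Nat.card_fun]; simp
    have := ih (H ⧸ N → ℤˣ) H (by
        rw [cW]
        exact lt_of_lt_of_le (Nat.pow_lt_pow_left c3 Nat.card_pos.ne') c4)
      (by rw [cW]; exact ((Nat.coprime_primes Nat.prime_two hp.out).2 hp2.symm).pow_left _) K hn
      (fun k hk => (kp k hk).imp fun j e v => by rw [e, one_smul]) a ha fun f => by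
        obtain ⟨h, e⟩ := hc (∏ q, if f q = 1 then 1 else q.out • u)
        refine ⟨h, funext fun q => ?_⟩
        have := key _ (fun q => by split_ifs; exacts [one_mem _, hout q u hu]) _ e q
        change f ((h * a * h⁻¹)⁻¹ • q) = f q
        split_ifs at this with h1 h2 h2
        · rw [h1, h2]
        · rw [smul_one] at this; exact absurd this.symm (ne _)
        · rw [← mul_smul] at this; exact absurd this (ne _)
        · rw [Int.units_ne_iff_eq_neg.1 h1, Int.units_ne_iff_eq_neg.1 h2]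
    intro q
    have e : (if a⁻¹ • q = q then (-1 : ℤˣ) else 1) = if q = q then -1 else 1 :=
      congrFun (this fun r => if r = q then -1 else 1) q
    by_contra h
    rw [if_neg (fun e => h (inv_smul_eq_iff.1 e).symm), if_pos rfl] at e
    exact absurd e (by decide)
  have hA' : ∀ h : H, ∀ q : H ⧸ N, (h * a * h⁻¹) • q = q := fun h q => by
    rw [mul_smul, mul_smul, hA, smul_inv_smul]
  have aN : ∀ h : H, h * a * h⁻¹ ∈ N := fun h => by
    have := hA' h ((1 : H) : H ⧸ N)
    rw [MulAction.Quotient.smul_mk, QuotientGroup.eq] at this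
    simpa using inv_mem this
  have h2 : ∀ g : H, ∀ v ∈ fx V D, (g * a * g⁻¹) • v = v := by
    intro g v hv
    letI := resAct N (fx V D) NU
    have := ih (fx V D) N (lt_card UT) (hV.coprime_dvd_left (card_subgroup_dvd_card _))
      (K.subgroupOf N) inferInstance (fun k hk => (kp k hk).imp fun j e v => by
        rw [show k ^ p ^ j = 1 from Subtype.ext e, one_smul]) ⟨_, aN g⟩ (hn.conj_mem a ha g)
      (fun w => by
        obtain ⟨h, e⟩ := hc (∏ q : H ⧸ N, q.out • (w : V))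
        have := key _ (fun q => hout q w w.2) _ e ((h * g⁻¹ : H) : H ⧸ N)
        rw [inv_smul_eq_iff.2 (hA' h _).symm] at this
        obtain ⟨n, e⟩ := QuotientGroup.mk_out_eq_mul N (h * g⁻¹)
        refine ⟨n⁻¹, Subtype.ext ?_⟩
        change ((n : H)⁻¹ * (g * a * g⁻¹) * (n : H)⁻¹⁻¹) • (w : V) = w
        rw [e, ← mul_smul, ← inv_smul_eq_iff, ← mul_smul] at this
        rw [← this]; congr 1; group) ⟨v, hv⟩
    exact congrArg Subtype.val this
  rcases hi (fx V (normalClosure {a})) (fun g w hw d hd => by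
    have := hw _ (normalClosure_normal.conj_mem d hd g⁻¹)
    rw [inv_inv, mul_smul, mul_smul, inv_smul_eq_iff] at this
    exact this) with h | h
  · refine absurd ((eq_bot_iff_forall _).1 h u fun d hd => ?_) u1
    refine (closure_le (MulAction.stabilizer H u)).2 (fun x hx => ?_) hd
    obtain ⟨y, rfl, hy⟩ := Group.mem_conjugatesOfSet_iff.1 hx
    obtain ⟨g, rfl⟩ := isConj_iff.1 hy
    exact h2 g u hu
  · exact hf a fun v => (h ▸ mem_top v : v ∈ fx V (normalClosure {a})) a (subset_normalClosure rfl)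

theorem faith [hp : Fact p.Prime] [Finite H] [Finite V] (hV : (Nat.card V).Coprime p) (hp2 : p ≠ 2)
    (ih : P.{u} p (Nat.card V)) (hf : ∀ g : H, (∀ v : V, g • v = v) → g = 1)
    (K : Subgroup H) [hn : K.Normal] (hK : IsPGroup p K) {a : H} (ha : a ∈ K)
    (hc : ∀ v : V, ∃ h : H, (h * a * h⁻¹) • v = v) : a = 1 := by
  have kp : ∀ k ∈ K, ∃ j, k ^ p ^ j = 1 := fun k hk => (hK ⟨k, hk⟩).imp fun j e => congrArg Subtype.val e
  have main : ∀ a ∈ K, a ^ p = 1 → (∀ v : V, ∃ h : H, (h * a * h⁻¹) • v = v) → a = 1 := by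
    intro a ha ap hc
    by_cases hi : ∀ W : Subgroup V, (∀ g : H, ∀ w ∈ W, g • w ∈ W) → W = ⊥ ∨ W = ⊤
    · by_contra a1
      haveI : Nontrivial V := by
        by_contra h
        rw [not_nontrivial_iff_subsingleton] at h
        exact a1 (hf a fun v => Subsingleton.elim _ _)
      refine prim hV hp2 K hK (fun B BK Bn Bc b hb b1 v hv => ?_) ha a1 ap hc
      by_contra v1
      exact a1 (imprim hV hp2 ih hf hi K hK B Bc hb b1 hv v1 ha hc)
    · push Not at hi
      obtain ⟨W, hW, W0, W1⟩ := hi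
      have h1 : ∀ w ∈ W, a • w = w := fun w hw => by
        letI := resAct ⊤ W fun g _ => hW g
        exact congrArg Subtype.val (ih W (⊤ : Subgroup H) (lt_card W1)
          (hV.coprime_dvd_left (card_subgroup_dvd_card _)) (K.subgroupOf ⊤) inferInstance
          (fun k hk => (kp k hk).imp fun j e v => by
            rw [show k ^ p ^ j = 1 from Subtype.ext e, one_smul]) ⟨a, trivial⟩ ha
          (fun w => (hc w).elim fun h e => ⟨⟨h, trivial⟩, Subtype.ext e⟩) ⟨w, hw⟩)
      have h2 : ∀ v : V, ((a • v : V) : V ⧸ W) = v := fun v => by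
        letI := quoAct W hW
        exact ih (V ⧸ W) H (by
            rw [← W.card_mul_index]
            exact lt_mul_of_one_lt_left Nat.card_pos (W.one_lt_card_iff_ne_bot.2 W0))
          (hV.coprime_dvd_left W.index_dvd_card) K hn
          (fun k hk => (kp k hk).imp fun j e v => by rw [e, one_smul]) a ha
          (fun w => QuotientGroup.induction_on w fun v => (hc v).imp fun h e =>
            congrArg QuotientGroup.mk e) (v : V ⧸ W)
      refine hf a fun v => ?_
      have hw := QuotientGroup.eq.1 (h2 v).symm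
      have e : ∀ i : ℕ, a ^ i • v = v * (v⁻¹ * a • v) ^ i := by
        intro i
        induction i with
        | zero => simp
        | succ i ih =>
          rw [pow_succ', mul_smul, ih, smul_mul', h1 _ (pow_mem hw i), pow_succ', ← mul_assoc, mul_inv_cancel_left]
      have := e p
      rw [ap, one_smul, left_eq_mul] at this
      exact (inv_mul_eq_one.1 (tors hV (j := 1) (by simpa using this))).symm
  obtain ⟨j, hj⟩ := kp a ha
  induction j with
  | zero => simpa using hj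
  | succ j ihj =>
    refine ihj (main _ (pow_mem ha _) (by rw [← pow_mul, ← pow_succ, hj]) fun v => (hc v).imp fun h e => ?_)
    rw [← conj_pow]
    exact mem_fx_zpowers.2 e _ (pow_mem (mem_zpowers _) _)

theorem P_all [hp : Fact p.Prime] (hp2 : p ≠ 2) (n : ℕ) : P.{u} p n := by
  induction n with
  | zero => intro V H _ _ _ _ h; omega
  | succ n ih =>
  intro V H _ _ _ _ hn hV K Kn hK a ha hc
  rcases (Nat.lt_succ_iff.1 hn).eq_or_lt with rfl | hn
  swap
  · exact ih V H hn hV K Kn hK a ha hc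
  let φ := (MulDistribMulAction.toMulAut H V).rangeRestrict
  have sj : Function.Surjective φ := MonoidHom.rangeRestrict_surjective _
  have e : ∀ (g : H) (v : V), φ g • v = g • v := fun g v => rfl
  haveI := Kn.map φ sj
  have := faith (H := (MulDistribMulAction.toMulAut H V).range) hV hp2 ih
    (fun g hg => Subtype.ext (MulEquiv.ext hg)) (K.map φ) (by
      rintro ⟨_, k, hk, rfl⟩
      refine (hK k hk).imp fun j h => Subtype.ext (Subtype.ext (MulEquiv.ext fun v => ?_))
      have := e (k ^ p ^ j) v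
      rw [map_pow, h] at this
      exact this) (a := φ a) ⟨a, ha, rfl⟩ fun v => (hc v).elim fun h e' => ⟨φ h, by
        rw [← map_inv, ← map_mul, ← map_mul, e, e']⟩
  intro v
  rw [← e, this, one_smul]

end Cfsg.Agent.Cov
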